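import Cfsg.Agent.SB.SporB.Geo

/-!
# S3519, the large sporadic groups: the order of a 2-local subgroup is divisible by seven (helper82)

The proofs of `SB/SporB/Geo` with `7 ∣ |H|` in place of "`H` is not solvable".
-/

set_option autoImplicit false
set_option linter.unusedSectionVars false

namespace Cfsg.Agent.N2.Sp4T

open Subgroup Cfsg Cfsg.Agent.Co2Type.Quad Cfsg.Agent.SB.SporB
open Cfsg.Agent.H251 (omegaCenterOf_ne_bot mem_omegaCenterOf pCoreOf_isPGroup le_pCoreOf le_normalizer_pCoreOf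
  normalizer_le_normalizer_omegaCenterOf pCoreOf_le)
open Cfsg.Agent.R2.M7 Cfsg.Agent.R2.M7.Geo Cfsg.Agent.R2.M7.Elem Cfsg.Agent.R2.M7.Ark

variable {G : Type*} [Group G]

/-- the order is prime to seven -/
def N7 (H : Subgroup G) : Prop := ¬ 7 ∣ Nat.card H

/-- the matrix of the product of three transvections -/
def m7 (a : ZMod 2 × ZMod 2 × ZMod 2) : ZMod 2 × ZMod 2 × ZMod 2 :=
  (a.1 + (a.2.1 + (a.2.2 + a.1)), a.2.1 + (a.2.2 + a.1), a.2.2 + a.1)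

theorem m7_seven : ∀ a, m7^[7] a = a := by decide

theorem m7_ne : ∀ k < 7, m7^[k] (1, 0, 0) = (1, 0, 0) → k = 0 := by decide

theorem seven_basis [Finite G] {H V : Subgroup G} (hc : ∀ a ∈ V, ∀ b ∈ V, a * b = b * a) (hs : ∀ a ∈ V, a * a = 1)
    (e : Fin 3 → G) (he : ∀ i, e i ∈ V) (φ : Fin 3 → G → ZMod 2)
    (hφ : ∀ i, ∀ a ∈ V, ∀ b ∈ V, φ i (a * b) = φ i a + φ i b) (hd : ∀ i j, φ i (e j) = if i = j then 1 else 0)
    (hτ : ∀ i j, i ≠ j → ∃ g ∈ H, ∀ v ∈ V, g * v * g⁻¹ = v * zp (e i) (φ j v)) : ¬ N7 H := by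
  have hφ1 : ∀ i, φ i 1 = 0 := fun i => by
    have := hφ i 1 V.one_mem 1 V.one_mem
    rw [mul_one] at this
    simpa using this
  have hzV : ∀ i a, zp (e i) a ∈ V := fun i a => by
    rcases SB.SporB.two_cases a with rfl | rfl
    · rw [zp_zero]; exact V.one_mem
    · rw [zp_one]; exact he i
  have hφz : ∀ i j a, φ i (zp (e j) a) = if i = j then a else 0 := fun i j a => by
    rcases SB.SporB.two_cases a with rfl | rfl
    · rw [zp_zero, hφ1, ite_self]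
    · rw [zp_one, hd]
  let c : G → ZMod 2 × ZMod 2 × ZMod 2 := fun v => (φ 0 v, φ 1 v, φ 2 v)
  obtain ⟨g₁, m₁, h₁⟩ := hτ 0 1 (by decide)
  obtain ⟨g₂, m₂, h₂⟩ := hτ 1 2 (by decide)
  obtain ⟨g₃, m₃, h₃⟩ := hτ 2 0 (by decide)
  have step : ∀ v ∈ V, g₁ * g₂ * g₃ * v * (g₁ * g₂ * g₃)⁻¹ ∈ V ∧ c (g₁ * g₂ * g₃ * v * (g₁ * g₂ * g₃)⁻¹) = m7 (c v) := by
    intro v hv
    have e0 : g₁ * g₂ * g₃ * v * (g₁ * g₂ * g₃)⁻¹ = g₁ * (g₂ * (g₃ * v * g₃⁻¹) * g₂⁻¹) * g₁⁻¹ := by group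
    have hz : ∀ i j a, ∀ w ∈ V, φ i (w * zp (e j) a) = φ i w + if i = j then a else 0 := fun i j a w hw => by
      rw [hφ i w hw _ (hzV _ _), hφz]
    have k3 := mul_mem hv (hzV 2 (φ 0 v))
    have k2 := mul_mem k3 (hzV 1 (φ 2 (v * zp (e 2) (φ 0 v))))
    rw [e0, h₃ v hv, h₂ _ k3, h₁ _ k2]
    refine ⟨mul_mem k2 (hzV _ _), ?_⟩
    simp only [c, m7]
    rw [hz 0 0 _ _ k2, hz 1 0 _ _ k2, hz 2 0 _ _ k2, hz 0 1 _ _ k3, hz 1 1 _ _ k3, hz 2 1 _ _ k3, hz 0 2 _ _ hv,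
      hz 1 2 _ _ hv, hz 2 2 _ _ hv]
    simp
  have iter : ∀ k, ∀ v ∈ V, (g₁ * g₂ * g₃) ^ k * v * ((g₁ * g₂ * g₃) ^ k)⁻¹ ∈ V ∧
      c ((g₁ * g₂ * g₃) ^ k * v * ((g₁ * g₂ * g₃) ^ k)⁻¹) = m7^[k] (c v) := by
    intro k
    induction k with
    | zero => intro v hv; simpa using hv
    | succ k ih =>
      intro v hv
      have e0 : (g₁ * g₂ * g₃) ^ (k + 1) * v * ((g₁ * g₂ * g₃) ^ (k + 1))⁻¹ =
          g₁ * g₂ * g₃ * ((g₁ * g₂ * g₃) ^ k * v * ((g₁ * g₂ * g₃) ^ k)⁻¹) * (g₁ * g₂ * g₃)⁻¹ := by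
        rw [pow_succ', mul_inv_rev]; simp only [mul_assoc]
      rw [e0, Function.iterate_succ_apply', ← (ih v hv).2]
      exact step _ (ih v hv).1
  intro h7
  have hg : (g₁ * g₂ * g₃) ^ Nat.card H = 1 :=
    congrArg Subtype.val (pow_card_eq_one' (x := (⟨_, mul_mem (mul_mem m₁ m₂) m₃⟩ : H)))
  have h1 := (iter (Nat.card H) (e 0) (he 0)).2
  have h2 : c (e 0) = (1, 0, 0) := by simp [c, hd]
  rw [hg, one_mul, inv_one, mul_one, h2, ← Nat.mod_add_div (Nat.card H) 7, Function.iterate_add_apply,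
    Function.iterate_mul, Function.iterate_fixed (m7_seven _)] at h1
  exact h7 (Nat.dvd_of_mod_eq_zero (m7_ne _ (Nat.mod_lt _ (by norm_num)) h1.symm))

/-- **Full groups of transvections on `V / L` of rank at least three.** -/
theorem seven_of_transv [Finite G] {H V L : Subgroup G} (hc : ∀ a ∈ V, ∀ b ∈ V, a * b = b * a)
    (hs : ∀ a ∈ V, a * a = 1) (hL : L ≤ V) (hcard : 8 * Nat.card L ≤ Nat.card V)
    (h : ∀ u ∈ V, u ∉ L → ∃ D : Subgroup G, (∀ d ∈ D, (∀ l ∈ L, d * l = l * d) → d ∈ H) ∧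
      (∀ d ∈ D, ∀ v ∈ V, d * v * d⁻¹ = v ∨ d * v * d⁻¹ = v * u) ∧ (∀ d ∈ D, d * u = u * d) ∧
      ∀ v ∈ V, (∀ d ∈ D, d * v = v * d) → v = 1 ∨ v = u) : ¬ N7 H := by
  let _ : CommGroup V := { (inferInstance : Group V) with mul_comm := fun a b => Subtype.ext (hc a a.2 b b.2) }
  let _ : Module (ZMod 2) (Additive V) := AddCommGroup.zmodModule (n := 2) (fun x => by
    rw [two_nsmul]; exact Subtype.ext (hs _ x.toMul.2))
  let W : Submodule (ZMod 2) (Additive V) := AddSubgroup.toZModSubmodule 2 (L.subgroupOf V).toAddSubgroup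
  have hW : Nat.card W = Nat.card L := Nat.card_congr (subgroupOfEquivOfLe hL).toEquiv
  obtain ⟨e, φ, hd, hφW⟩ := exists_dual_three W (by rw [hW]; exact hcard)
  classical
  let ψ : Fin 3 → G → ZMod 2 := fun i g => if hg : g ∈ V then φ i (Additive.ofMul ⟨g, hg⟩) else 0
  have hψ : ∀ i g (hg : g ∈ V), ψ i g = φ i (Additive.ofMul ⟨g, hg⟩) := fun i g hg => dif_pos hg
  have hψm : ∀ i, ∀ a ∈ V, ∀ b ∈ V, ψ i (a * b) = ψ i a + ψ i b := fun i a ha b hb => by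
    rw [hψ i _ (mul_mem ha hb), hψ i _ ha, hψ i _ hb, ← map_add]; rfl
  have hψe : ∀ i j, ψ i ((e j).toMul : V) = if i = j then 1 else 0 := fun i j => by
    rw [hψ i _ (e j).toMul.2]; exact hd i j
  have hψL : ∀ i, ∀ l ∈ L, ψ i l = 0 := fun i l hl => by
    rw [hψ i _ (hL hl)]; exact hφW i _ hl
  refine seven_basis hc hs (fun i => ((e i).toMul : V)) (fun i => (e i).toMul.2) ψ hψm hψe fun i j hij => ?_
  have hnL : (((e i).toMul : V) : G) ∉ L := fun hl => by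
    have h1 := hψe i i
    rw [hψL i _ hl, if_pos rfl] at h1
    exact zero_ne_one h1
  obtain ⟨D, h1, h2, h3, h4⟩ := h _ (e i).toMul.2 hnL
  obtain ⟨d, hd, h5⟩ := exists_transv hc hs (e i).toMul.2 (fun h => hnL (h ▸ L.one_mem)) h2 h3 (ψ j) (hψm j)
    fun v hv hv' => by
      rcases h4 v hv hv' with rfl | rfl
      · exact hψL j 1 L.one_mem
      · rw [hψe, if_neg hij.symm]
  refine ⟨d, h1 d hd fun l hl => ?_, h5⟩
  have h6 := h5 l (hL hl)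
  rw [hψL j l hl, zp_zero, mul_one] at h6
  exact mul_inv_eq_iff_eq_mul.1 h6

variable [Finite G] {Γ : Geo G}

/-- **Transvections centralising `A`.** -/
theorem NS7 (E : Ext Γ) {H V L A : Subgroup G} (hV : Γ.Sing V) (hL : L ≤ V) (hc : 8 * Nat.card L ≤ Nat.card V)
    (hA : ∀ u ∈ V, u ≠ 1 → A ≤ Γ.QQ u) (hAV : ∀ a ∈ A, a ∈ V → a = 1)
    (hH : ∀ u ∈ V, u ≠ 1 → ∀ d ∈ Γ.QQ u, (∀ a ∈ A, d * a = a * d) → (∀ l ∈ L, d * l = l * d) → d ∈ H) :
    ¬ N7 H := by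
  have B := E.F.basic
  refine seven_of_transv (sing_comm B hV) (sing_sq B hV) hL hc fun u hu huL => ?_
  have hu1 : u ≠ 1 := fun h => huL (h ▸ L.one_mem)
  have hL' := E.large u (hV.1 u hu hu1)
  refine ⟨Γ.QQ u ⊓ centralizer (A : Set G), fun d hd hl => hH u hu hu1 d hd.1 (mem_cent.1 hd.2) hl,
    fun d hd v hv => conj_Q hL' hd.1 (hV.2 u hu hu1 v hv), fun d hd => hL'.comm_z d hd.1, fun v hv h => ?_⟩
  rcases perp_perp hL' (hA u hu hu1) (hV.2 u hu hu1 v hv) (fun q hq hqa => h q ⟨hq, mem_cent.2 hqa⟩) with h1 | h1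
  · exact Or.inl (hAV v h1 hv)
  · right
    have h2 := hAV _ h1 (mul_mem hv hu)
    calc v = v * (u * u) := by rw [hL'.z_sq, mul_one]
      _ = u := by rw [← mul_assoc, h2, one_mul]

/-- `NS7` for `A = ⟨t⟩` -/
theorem NSt7 (E : Ext Γ) {H V L : Subgroup G} {t : G} (ht : IsA Γ t) (hV : Γ.Sing V) (hL : L ≤ V)
    (hc : 8 * Nat.card L ≤ Nat.card V) (hA : ∀ u ∈ V, u ≠ 1 → t ∈ Γ.QQ u)
    (hH : ∀ u ∈ V, u ≠ 1 → ∀ d ∈ Γ.QQ u, d * t = t * d → (∀ l ∈ L, d * l = l * d) → d ∈ H) : ¬ N7 H := by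
  refine NS7 E (A := zpowers t) hV hL hc (fun u hu h1 => zpowers_le.2 (hA u hu h1)) (fun a ha haV => ?_)
    fun u hu h1 d hd h2 => hH u hu h1 d hd (h2 t (mem_zpowers t))
  rcases mem_zp ht.1 ha with h | rfl
  · exact h
  · exact absurd (hV.1 a haV ht.2.1) ht.2.2

/-- the centraliser of a subgroup of an ark of order at most four without points -/
theorem arkNS7 (E : Ext Γ) {O H : Subgroup G} (hO : O ∈ Γ.Ark) {t d : G} (ht : t ∈ O) (hd : d ∈ O) (h1 : t ∉ Γ.Pt)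
    (h2 : d ∉ Γ.Pt) (h3 : t * d ∉ Γ.Pt)
    (hH : ∀ g, (∀ a ∈ O, g * a * g⁻¹ ∈ O) → g * t = t * g → g * d = d * g → g ∈ H) : ¬ N7 H := by
  have B := E.F.basic
  have A := E.F.ark
  obtain ⟨V, hVO, hV, hc⟩ := E.big O hO
  have c1 := card_allSub E hO hV hVO (t := t) fun _ _ _ => O_le_KK ht
  have hV1 := sing_le hV (allSub_le (B := B) (hV := hV) (t := t))
  have c2 := card_allSub E hO hV1 (allSub_le.trans hVO) (t := d) fun _ _ _ => O_le_KK hd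
  obtain ⟨L, hLO, htL, hdL, -, hL⟩ := exists_line (A.comm O hO) (A.sq O hO) ht hd
  refine NS7 E (A := L) (L := ⊥) (sing_le hV1 (allSub_le (B := B) (hV := hV1) (t := d))) bot_le
    (by rw [card_bot]; omega) (fun u hu hu1 a ha => ?_) (fun a ha haV => ?_) fun u hu hu1 q hq hqa _ => ?_
  · have k1 : t ∈ Γ.QQ u := hu.1.2.resolve_left hu1
    have k2 : d ∈ Γ.QQ u := hu.2.resolve_left hu1
    rcases hL a ha with rfl | rfl | rfl | rfl
    exacts [one_mem _, k1, k2, mul_mem k1 k2]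
  · by_contra ha1
    have k := hV.1 a haV.1.1 ha1
    rcases hL a ha with rfl | rfl | rfl | rfl
    exacts [ha1 rfl, h1 k, h2 k, h3 k]
  · exact hH q (E.QO O hO u (hVO hu.1.1) (hV.1 u hu.1.1 hu1) q hq) (hqa t htL) (hqa d hdL)

/-- **The centraliser of a four-group without points.** -/
theorem pairNS7 (E : Ext Γ) {H : Subgroup G} {t d : G} (ht : IsA Γ t) (hd : IsA Γ d) (htd : IsA Γ (t * d))
    (hc : t * d = d * t) (hH : ∀ g, g * t = t * g → g * d = d * g → g ∈ H) : ¬ N7 H := by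
  obtain ⟨O, hO, t', ht', d', hd', k1, k2, k3⟩ := exists_pair E
  obtain ⟨g, rfl, rfl⟩ := E.pairA t' d' t d k1 k2 k3 (E.F.ark.comm O hO _ ht' _ hd') ht hd htd hc
  exact arkNS7 E (E.F.ark.conj O hO g) (conj_mem_cj.2 ht') (conj_mem_cj.2 hd') ht.2.2 hd.2.2 htd.2.2 fun x _ => hH x

theorem singleNS7 (E : Ext Γ) {H : Subgroup G} {t : G} (ht : IsA Γ t) (hH : ∀ g, g * t = t * g → g ∈ H) :
    ¬ N7 H := by
  obtain ⟨O, hO, t', ht', d', hd', k1, -, -⟩ := exists_pair E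
  obtain ⟨g, rfl⟩ := E.conjA t' t k1 ht
  refine arkNS7 E (E.F.ark.conj O hO g) (conj_mem_cj.2 ht') (conj_mem_cj.2 ht') ht.2.2 ht.2.2 ?_ fun x _ h _ => hH x h
  rw [ht.1]
  exact fun h => E.F.basic.pt_ne 1 h rfl

/-- **The centraliser of `t` and of a line of points `u` with `t ∈ Q_u`.** -/
theorem lineNS7 (E : Ext Γ) {H : Subgroup G} {t x y : G} (ht : IsA Γ t) (hx : x ∈ Γ.Pt) (hy : y ∈ Γ.Pt)
    (hyx : y ∈ Γ.QQ x) (hne : y ≠ x) (htx : t ∈ Γ.QQ x) (hty : t ∈ Γ.QQ y)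
    (hH : ∀ g, g * t = t * g → g * x = x * g → g * y = y * g → g ∈ H) : ¬ N7 H := by
  have B := E.F.basic
  have A := E.F.ark
  obtain ⟨O, hO, hxO, hyO, htC, htO⟩ := E.line4 x hx y hy hyx hne t htx hty ht
  obtain ⟨V, h1, h2, h3, h4, h5⟩ := exists_V B A hO htO
  have hV : Γ.Sing V := ⟨fun v hv h => (h3 v hv h).1, h5⟩
  have hc : Nat.card V = 32 := by
    rw [ncard_eq V h1]
    exact A.V_card O hO x hxO hx t htC htx ht.1 htO
  obtain ⟨L, hLV, hxL, hyL, hL, -⟩ := exists_line (sing_comm B hV) (sing_sq B hV) (h4 x hxO hx (KK_of' htC htx))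
    (h4 y hyO hy (KK_of' htC hty))
  refine NSt7 E ht hV hLV (by omega) (fun u hu hu1 => ?_) fun u _ _ d _ hd hl => hH d hd (hl x hxL) (hl y hyL)
  by_contra hn
  obtain ⟨hup, huK⟩ := h3 u hu hu1
  obtain ⟨O', hO', k1, k2⟩ := exists_ark_of E ht hup (CC_comm A hO htC (h2 hu)).symm
  exact htO (A.unique O hO O' hO' u hup (h2 hu) k2 t huK (O_le_KK k1) hn ▸ k1)

/-- **The 2-local subgroups of the Monster have an order divisible by seven.** -/
theorem noM7 (E : Ext Γ) {S : Subgroup G} (hS : N7 S) (h0 : pCoreOf 2 S ≠ ⊥)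
    (hN : ∀ U : Subgroup G, U ≠ ⊥ → IsPGroup 2 U → (∀ s ∈ S, ∀ u ∈ U, s * u * s⁻¹ ∈ U) →
      ∀ g, (∀ u ∈ U, g * u * g⁻¹ ∈ U) → g ∈ S) : False := by
  have B := E.F.basic
  have A := E.F.ark
  have hT := pCoreOf_isPGroup S
  have hTn : ∀ s ∈ S, ∀ u ∈ pCoreOf 2 S, s * u * s⁻¹ ∈ pCoreOf 2 S := fun s hs u hu =>
    conj_of_norm (le_normalizer_pCoreOf S hs) hu
  have hZs : ∀ a ∈ omegaCenterOf (pCoreOf 2 S), a * a = 1 := fun x hx => by
    rw [← pow_two]; exact (mem_omegaCenterOf.1 hx).2.2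
  have hZ := hN _ (omegaCenterOf_ne_bot hT h0) (two_of_sq hZs) norm_omega
  by_cases hpt : ∃ c ∈ pCoreOf 2 S, c ∈ Γ.Pt
  · obtain ⟨c, hcT, hc⟩ := hpt
    have St := sit E hT fun g hg => cent_le_core (ch2_pt E hT hcT hc)
      (fun x hx => hN _ h0 hT hTn x (conj_of_comm (mem_cent.1 hx))) (le_normalizer_pCoreOf S) le_rfl hg
    rcases MainCP.mainC E.F _ _ St with hO | ⟨F, hF0, -, hF, hFn⟩
    · refine arkNS7 E hO (one_mem _) (one_mem _) (fun h => B.pt_ne 1 h rfl) (fun h => B.pt_ne 1 h rfl)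
        (fun h => B.pt_ne _ h (mul_one 1)) (fun g hg _ _ => hZ g hg) hS
    · have hF' := hN F hF0 (two_of_sq (sing_sq B hF)) fun s hs => hFn s (norm_omega s hs)
      by_cases h8 : 8 ≤ Nat.card F
      · exact NS7 E (A := ⊥) (L := ⊥) hF bot_le (by rw [card_bot]; omega) (fun _ _ _ => bot_le)
          (fun a ha _ => mem_bot.1 ha) (fun u hu hu1 d hd _ _ => hF' d (Q_norm E hF hu hu1 hd)) hS
      obtain ⟨O, hO⟩ := E.ark
      obtain ⟨V, -, hV, hc⟩ := E.big O hO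
      obtain ⟨v, hv, w, hw, hv1, hw1, hwv⟩ : ∃ v ∈ V, ∃ w ∈ V, v ≠ 1 ∧ w ≠ 1 ∧ w ≠ v := by
        obtain ⟨v, hv, hv1⟩ := exists_ne_one (E := V) (by omega)
        obtain ⟨L, -, hvL, -, hL, -⟩ := exists_line (sing_comm B hV) (sing_sq B hV) hv hv
        obtain ⟨w, hw, hwL⟩ : ∃ w ∈ V, w ∉ L := by
          by_contra h
          push Not at h
          have := card_le_of_le (show V ≤ L from h)
          omega
        exact ⟨v, hv, w, hw, hv1, fun h => hwL (h ▸ L.one_mem), fun h => hwL (h ▸ hvL)⟩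
      have key : ∀ g : G, (∀ d, d * (g * v * g⁻¹) = g * v * g⁻¹ * d → d * (g * w * g⁻¹) = g * w * g⁻¹ * d → d ∈ S) →
          False := by
        intro g hg
        have hV' := sing_cj B hV g
        obtain ⟨L, hLV, hxL, hyL, hL, -⟩ := exists_line (sing_comm B hV') (sing_sq B hV') (conj_mem_cj.2 hv)
          (conj_mem_cj.2 hw)
        exact NS7 E (A := ⊥) hV' hLV (by rw [card_cj]; omega) (fun _ _ _ => bot_le) (fun a ha _ => mem_bot.1 ha)
          (fun u _ _ d _ _ hl => hg d (hl _ hxL) (hl _ hyL)) hS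
      rcases small_cases (sing_sq B hF) hF0 h8 with ⟨x, hx, hx1, h⟩ | ⟨x, hx, y, hy, hx1, hy1, hyx, h⟩
      · obtain ⟨g, rfl⟩ := B.pt_trans v (hV.1 v hv hv1) x (hF.1 x hx hx1)
        exact key g fun d h1 _ => hF' d (conj_of_comm fun a ha => comm_four h1 h1 ((h a ha).imp_right Or.inl))
      · obtain ⟨g, rfl, rfl⟩ := E.pair v (hV.1 v hv hv1) w (hV.1 w hw hw1) (hV.2 v hv hv1 w hw) hwv
          x (hF.1 x hx hx1) y (hF.1 y hy hy1) (hF.2 x hx hx1 y hy) hyx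
        exact key g fun d h1 h2 => hF' d (conj_of_comm fun a ha => comm_four h1 h2 (h a ha))
  · push Not at hpt
    have hZp : ∀ a ∈ omegaCenterOf (pCoreOf 2 S), a ∉ Γ.Pt := fun a ha => hpt a (mem_omegaCenterOf.1 ha).1
    have hZc : ∀ a ∈ omegaCenterOf (pCoreOf 2 S), ∀ b ∈ omegaCenterOf (pCoreOf 2 S), a * b = b * a :=
      fun x hx y hy => mem_cent.1 (mem_omegaCenterOf.1 hx).2.1 y (mem_omegaCenterOf.1 hy).1
    obtain ⟨t, ht, ht1⟩ : ∃ t ∈ omegaCenterOf (pCoreOf 2 S), t ≠ 1 := by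
      by_contra h
      push Not at h
      exact omegaCenterOf_ne_bot hT h0 ((eq_bot_iff_forall _).2 h)
    have hA : IsA Γ t := ⟨hZs t ht, ht1, hZp t ht⟩
    by_cases h : ∀ a ∈ omegaCenterOf (pCoreOf 2 S), a = 1 ∨ a = t
    · exact singleNS7 E hA (fun g hg => hZ g (conj_of_comm fun a ha => comm_four hg hg ((h a ha).imp_right Or.inl))) hS
    · push Not at h
      obtain ⟨d, hd, hd1, hdt⟩ := h
      obtain ⟨h1, h2⟩ := pure_cases E hZc hZs hZp ht hd ht1 hd1 hdt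
      exact pairNS7 E hA ⟨hZs d hd, hd1, hZp d hd⟩ h1 (hZc t ht d hd)
        (fun g hg hg' => hZ g (conj_of_comm fun a ha => comm_four hg hg' (h2 a ha))) hS

/-! ### the centraliser of `t` -/

/-- the situation in `C(t)` -/
structure CtxB7 (Γ : Geo G) (t : G) (S : Subgroup G) : Prop where
  isA : IsA Γ t
  solv : N7 S
  cent : ∀ s ∈ S, s * t = t * s
  mem : t ∈ S
  max : ∀ U : Subgroup G, IsPGroup 2 U → (∀ u ∈ U, u * t = t * u) → (∃ u ∈ U, u ≠ 1 ∧ u ≠ t) →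
    (∀ s ∈ S, ∀ u ∈ U, s * u * s⁻¹ ∈ U) → ∀ g, g * t = t * g → (∀ u ∈ U, g * u * g⁻¹ ∈ U) → g ∈ S

variable {t : G} {S : Subgroup G}

theorem CtxB7.ark (C : CtxB7 Γ t S) (E : Ext Γ) {O : Subgroup G} (hO : O ∈ Γ.Ark) (ht : t ∈ O)
    (hn : ∀ s ∈ S, ∀ u ∈ O, s * u * s⁻¹ ∈ O) : False := by
  have A := E.F.ark
  obtain ⟨V, hVO, hV, hc⟩ := E.big O hO
  obtain ⟨v, hv, hv1⟩ := exists_ne_one (E := V) (by omega)
  refine arkNS7 E hO ht ht C.isA.2.2 C.isA.2.2 (by rw [C.isA.1]; exact fun h => E.F.basic.pt_ne 1 h rfl)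
    (fun g hg hgt _ => C.max O (two_of_sq (A.sq O hO)) (fun u hu => A.comm O hO u hu t ht)
      ⟨v, hVO hv, hv1, fun h => C.isA.2.2 (h ▸ hV.1 v hv hv1)⟩ hn g hgt hg) C.solv

theorem CtxB7.max_sing (C : CtxB7 Γ t S) (E : Ext Γ) {F : Subgroup G} (hF : Γ.Sing F) (h0 : F ≠ ⊥)
    (hc : ∀ u ∈ F, u * t = t * u) (hn : ∀ s ∈ S, ∀ u ∈ F, s * u * s⁻¹ ∈ F) :
    ∀ g, g * t = t * g → (∀ u ∈ F, g * u * g⁻¹ ∈ F) → g ∈ S := by
  refine C.max F (two_of_sq (sing_sq E.F.basic hF)) hc ?_ hn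
  by_contra h
  push Not at h
  refine h0 ((eq_bot_iff_forall _).2 fun u hu => ?_)
  by_contra h1
  exact C.isA.2.2 (h u hu h1 ▸ hF.1 u hu h1)

theorem CtxB7.all (C : CtxB7 Γ t S) (E : Ext Γ) {F : Subgroup G} (hF : Γ.Sing F) (h0 : F ≠ ⊥)
    (ht : ∀ u ∈ F, u ≠ 1 → t ∈ Γ.QQ u) (hn : ∀ s ∈ S, ∀ u ∈ F, s * u * s⁻¹ ∈ F) : False := by
  have B := E.F.basic
  have hF' := C.max_sing E hF h0 (fun u hu => by
    by_cases h : u = 1
    · rw [h, mul_one, one_mul]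
    · exact (B.QQ_comm u (hF.1 u hu h) t (ht u hu h)).symm) hn
  by_cases h8 : 8 ≤ Nat.card F
  · exact NSt7 E (L := ⊥) C.isA hF bot_le (by rw [card_bot]; omega) ht
      (fun u hu hu1 d hd hdt _ => hF' d hdt (Q_norm E hF hu hu1 hd)) C.solv
  rcases small_cases (sing_sq B hF) h0 h8 with ⟨x, hx, hx1, h⟩ | ⟨x, hx, y, hy, hx1, hy1, hyx, h⟩
  · obtain ⟨y, hy, hyx, h1, h2⟩ := line1 E (hF.1 x hx hx1) (ht x hx hx1) C.isA
    exact lineNS7 E C.isA (hF.1 x hx hx1) hy h1 hyx (ht x hx hx1) h2 (fun g k1 k2 _ => hF' g k1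
      (conj_of_comm fun a ha => comm_four k2 k2 ((h a ha).imp_right Or.inl))) C.solv
  · exact lineNS7 E C.isA (hF.1 x hx hx1) (hF.1 y hy hy1) (hF.2 x hx hx1 y hy) hyx (ht x hx hx1) (ht y hy hy1)
      (fun g k1 k2 k3 => hF' g k1 (conj_of_comm fun a ha => comm_four k2 k3 (h a ha))) C.solv

theorem CtxB7.none (C : CtxB7 Γ t S) (E : Ext Γ) {F : Subgroup G} (hF : Γ.Sing F) (h0 : F ≠ ⊥)
    (hc : ∀ u ∈ F, u * t = t * u) (ht : ∀ u ∈ F, u ≠ 1 → t ∉ Γ.QQ u) (hn : ∀ s ∈ S, ∀ u ∈ F, s * u * s⁻¹ ∈ F) :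
    False := by
  have B := E.F.basic
  have A := E.F.ark
  have hF' := C.max_sing E hF h0 hc hn
  have hFO : ∀ O ∈ Γ.Ark, t ∈ O → ∀ u ∈ F, u ≠ 1 → u ∈ O → ∀ v ∈ F, v ∈ O → v = 1 ∨ v = u := by
    intro O hO htO u hu hu1 huO v hv hvO
    by_contra h
    push Not at h
    have h1 : u * v ≠ 1 := fun h1 => h.2 (by rw [← one_mul v, ← sing_sq B hF u hu, mul_assoc, h1, mul_one])
    apply ht _ (mul_mem hu hv) h1
    rw [A.bet_iff O hO _ (mul_mem huO hvO) (hF.1 _ (mul_mem hu hv) h1) t htO, bet_mul_right A hO htO huO hvO,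
      (not_mem_QQ A hO huO (hF.1 u hu hu1) htO).1 (ht u hu hu1),
      (not_mem_QQ A hO hvO (hF.1 v hv h.1) htO).1 (ht v hv h.1), one_one]
  by_cases h8 : 8 ≤ Nat.card F
  · refine seven_of_transv (L := ⊥) (sing_comm B hF) (sing_sq B hF) bot_le (by rw [card_bot]; omega)
      (fun u hu hu1 => ?_) C.solv
    rw [mem_bot] at hu1
    have hup := hF.1 u hu hu1
    have hL := E.large u hup
    obtain ⟨O, hO, htO, huO⟩ := exists_ark_of E C.isA hup (hc u hu)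
    refine ⟨Γ.QQ u ⊓ centralizer {t}, fun d hd _ => hF' d (mem_centralizer_singleton_iff.1 hd.2)
      (Q_norm E hF hu hu1 hd.1), fun d hd v hv => conj_Q hL hd.1 (hF.2 u hu hu1 v hv), fun d hd => hL.comm_z d hd.1,
      fun v hv h => hFO O hO htO u hu hu1 huO v hv (E.CO O hO u huO hup v fun q hq hq' => h q ⟨hq', ?_⟩)⟩
    exact mem_centralizer_singleton_iff.2 (CC_comm A hO hq htO)
  rcases small_cases (sing_sq B hF) h0 h8 with ⟨x, hx, hx1, h⟩ | ⟨x, hx, y, hy, hx1, hy1, hyx, h⟩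
  · have hxp := hF.1 x hx hx1
    obtain ⟨O, hO, htO, hxO⟩ := exists_ark_of E C.isA hxp (hc x hx)
    refine C.ark E hO htO fun s hs u hu => norm_mem A hO (Ark.norm_of B A hO hxO hxp (O_le_KK htO) (ht x hx hx1) ?_
      (C.cent s hs)) hu
    rcases h _ (hn s hs x hx) with h1 | h1
    · exact absurd (by calc x = s⁻¹ * (s * x * s⁻¹) * s := by group
        _ = 1 := by rw [h1]; group) hx1
    · exact mul_inv_eq_iff_eq_mul.1 h1
  · have hxp := hF.1 x hx hx1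
    have hyp := hF.1 y hy hy1
    obtain ⟨O, hO, htO, hxO⟩ := exists_ark_of E C.isA hxp (hc x hx)
    have hyC : y ∈ CC O := A.cent_le O hO x hxO hxp t (O_le_KK htO) (ht x hx hx1) y (hF.2 x hx hx1 y hy) (hc y hy)
    have hyO : y ∉ O := fun h1 => (hFO O hO htO x hx hx1 hxO y hy h1).elim hy1 hyx
    obtain ⟨V, h1, h2, h3, h4, h5⟩ := exists_V B A hO hyO
    have hV : Γ.Sing V := ⟨fun v hv h => (h3 v hv h).1, h5⟩
    have hcV : Nat.card V = 32 := by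
      rw [ncard_eq V h1]
      exact A.V_card O hO x hxO hxp y hyC (hF.2 x hx hx1 y hy) (B.pt_sq y hyp) hyO
    have hxV : x ∈ V := h4 x hxO hxp (KK_of' hyC (hF.2 x hx hx1 y hy))
    have c1 := card_allSub E hO hV h2 (t := y) fun v hv hv1 => (h3 v hv hv1).2
    have hV1 := sing_le hV (allSub_le (B := B) (hV := hV) (t := y))
    have c2 := card_allSub E hO hV1 (allSub_le.trans h2) (t := t) fun _ _ _ => O_le_KK htO
    have hiff : ∀ p, p ≠ 1 → (p ∈ allSub B hV1 t ↔ p ∈ Γ.Pt ∧ t ∈ Γ.QQ p ∧ ∀ a ∈ F, a ∈ Γ.QQ p) := by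
      intro p hp1
      constructor
      · intro hp
        have k1 := hV.2 p hp.1.1 hp1 x hxV
        have k2 := hp.1.2.resolve_left hp1
        refine ⟨hV.1 p hp.1.1 hp1, hp.2.resolve_left hp1, fun a ha => ?_⟩
        rcases h a ha with rfl | rfl | rfl | rfl
        exacts [one_mem _, k1, k2, mul_mem k1 k2]
      · rintro ⟨k1, k2, k3⟩
        have k4 : p ∈ O := A.pt_mem O hO x hxO hxp t (O_le_KK htO) (ht x hx hx1) p k1 (B.symm p k1 x hxp (k3 x hx)) k2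
        exact ⟨⟨h4 p k4 k1 (KK_of' hyC (k3 y hy)), Or.inr (k3 y hy)⟩, Or.inr k2⟩
    refine C.all E (sing_le hV1 (allSub_le (B := B) (hV := hV1) (t := t))) (fun h => by rw [h, card_bot] at c2; omega)
      (fun u hu hu1 => hu.2.resolve_left hu1) fun s hs u hu => ?_
    by_cases hu1 : u = 1
    · rw [hu1, mul_one, mul_inv_cancel]; exact one_mem _
    obtain ⟨k1, k2, k3⟩ := (hiff u hu1).1 hu
    refine (hiff _ (B.pt_ne _ (B.pt_conj u k1 s))).2 ⟨B.pt_conj u k1 s, ?_, fun a ha => ?_⟩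
    · have k4 := B.QQ_conj u k1 s t k2
      rwa [C.cent s hs, mul_inv_cancel_right] at k4
    · have k4 := B.QQ_conj u k1 s _ (k3 _ (hn s⁻¹ (inv_mem hs) a ha))
      have e : s * (s⁻¹ * a * s⁻¹⁻¹) * s⁻¹ = a := by group
      rwa [e] at k4

theorem CtxB7.t_mem (C : CtxB7 Γ t S) : t ∈ pCoreOf 2 S := by
  refine le_pCoreOf (U := zpowers t) (two_of_sq fun a ha => ?_) (zpowers_le.2 C.mem)
    (norm_of fun s hs => conj_of_comm fun a ha => ?_) (mem_zpowers t)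
  · rcases mem_zp C.isA.1 ha with rfl | rfl
    exacts [mul_one 1, C.isA.1]
  · rcases mem_zp C.isA.1 ha with rfl | rfl
    exacts [by rw [mul_one, one_mul], C.cent s hs]

/-- **`O₂(S)` contains no point.** -/
theorem CtxB7.no_pt (C : CtxB7 Γ t S) (E : Ext Γ) : ∀ c ∈ pCoreOf 2 S, c ∉ Γ.Pt := by
  intro c hcT hc
  have B := E.F.basic
  have hT := pCoreOf_isPGroup S
  have hTt : ∀ u ∈ pCoreOf 2 S, u * t = t * u := fun u hu => C.cent u (pCoreOf_le S hu)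
  have St := sit E hT fun g hg => cent_le_core (ch2_pt E hT hcT hc)
    (fun x hx => C.max _ hT hTt ⟨c, hcT, B.pt_ne c hc, fun h => C.isA.2.2 (h ▸ hc)⟩
      (fun s hs u hu => conj_of_norm (le_normalizer_pCoreOf S hs) hu) x (mem_cent.1 hx t C.t_mem)
      (conj_of_comm (mem_cent.1 hx))) (le_normalizer_pCoreOf S) le_rfl hg
  have htZ := St.all t C.isA.1 hTt
  rcases MainCP.mainC E.F _ _ St with hO | ⟨F, hF0, hFZ, hF, hFn⟩
  · exact C.ark E hO htZ norm_omega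
  · have hn : ∀ s ∈ S, ∀ u ∈ F, s * u * s⁻¹ ∈ F := fun s hs => hFn s (norm_omega s hs)
    by_cases h : allSub B hF t = ⊥
    · refine C.none E hF hF0 (fun u hu => St.ab u (hFZ hu) t htZ) (fun u hu hu1 h1 => hu1 ?_) hn
      exact mem_bot.1 (h ▸ (⟨hu, Or.inr h1⟩ : u ∈ allSub B hF t))
    · refine C.all E (sing_le hF (allSub_le (B := B) (hV := hF) (t := t))) h (fun u hu hu1 => hu.2.resolve_left hu1)
        fun s hs u hu => ⟨hn s hs u hu.1, ?_⟩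
      by_cases hu1 : u = 1
      · left; rw [hu1]; group
      · have k4 := B.QQ_conj u (hF.1 u hu.1 hu1) s t (hu.2.resolve_left hu1)
        rw [C.cent s hs, mul_inv_cancel_right] at k4
        exact Or.inr k4

end Cfsg.Agent.N2.Sp4T
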